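import Mathlib
import Cfsg.Agent.Char.Central

set_option autoImplicit false
set_option backward.isDefEq.respectTransparency false

namespace Cfsg.Agent.SylN

open Cfsg Cfsg.Agent.Char Subgroup
open scoped Classical

variable {G : Type*} [Group G] [Fintype G]

theorem sum_count {p : ℕ} [Fact p.Prime] (P : Sylow p G) {χ : G → ℂ} (hc : IsClassFunction G χ) :
    ∑ g, ((Finset.univ.filter fun Q : Sylow p G => g ∈ (Q : Subgroup G)).card : ℂ) * χ g =
      (Nat.card (Sylow p G) : ℂ) * ∑ x : (P : Subgroup G), χ x := by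
  have h1 : ∀ Q : Sylow p G, ∑ g, (if g ∈ (Q : Subgroup G) then χ g else 0) =
      ∑ x : (P : Subgroup G), χ x := by
    intro Q
    obtain ⟨a, rfl⟩ := MulAction.exists_smul_eq G P Q
    have h2 : ∑ x : (P : Subgroup G), χ x = ∑ g, (if g ∈ (P : Subgroup G) then χ g else 0) := by
      rw [← Finset.sum_filter]
      exact (Finset.sum_subtype _ (by simp) _).symm
    rw [h2]
    refine (Fintype.sum_equiv (MulAut.conj a).toEquiv _ _ fun g => ?_).symm
    have h3 : (MulAut.conj a).toEquiv g ∈ ((a • P : Sylow p G) : Subgroup G) ↔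
        g ∈ (P : Subgroup G) := by
      rw [Sylow.coe_subgroup_smul]
      exact Subgroup.smul_mem_pointwise_smul_iff (a := MulAut.conj a) (x := g)
    have h4 : χ ((MulAut.conj a).toEquiv g) = χ g := hc g a
    rw [h4]
    exact if_congr h3.symm rfl rfl
  calc _ = ∑ g, ∑ Q : Sylow p G, (if g ∈ (Q : Subgroup G) then χ g else 0) := by
        refine Finset.sum_congr rfl fun g _ => ?_
        rw [← Finset.sum_filter, Finset.sum_const, nsmul_eq_mul]
    _ = _ := by
        rw [Finset.sum_comm, Finset.sum_congr rfl fun Q _ => h1 Q, Finset.sum_const, nsmul_eq_mul,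
          Nat.card_eq_fintype_card, Finset.card_univ]

theorem count_class {p : ℕ} [Fact p.Prime] : IsClassFunction G fun g =>
    ((Finset.univ.filter fun Q : Sylow p G => g ∈ (Q : Subgroup G)).card : ℂ) := by
  intro g a
  simp only [Nat.cast_inj]
  symm
  refine Finset.card_bijective (fun Q => a • Q) (MulAction.bijective a) fun Q => ?_
  simp only [Finset.mem_filter, Finset.mem_univ, true_and]
  rw [Sylow.coe_subgroup_smul]
  exact (Subgroup.smul_mem_pointwise_smul_iff (a := MulAut.conj a) (x := g)).symm

/-- A faithful irreducible character of degree prime to the order and the number of Sylow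
subgroups has no fixed vectors on a nontrivial Sylow subgroup. -/
theorem fix_zero {p : ℕ} [Fact p.Prime] (P : Sylow p G) (hP : (P : Subgroup G) ≠ ⊥) {χ : G → ℂ}
    (hχ : IsIrrCharacter G χ) (hf : ∀ g, χ g = χ 1 → g = 1) {d : ℕ} (hd : χ 1 = d)
    (hcop : d.Coprime (Nat.card (Sylow p G) * Nat.card (P : Subgroup G))) (y : G) :
    ∑ x : (P : Subgroup G), χ (x * y) = 0 := by
  have hint := isIrr_isIntegral_sum_div hχ (count_class (p := p)) fun g => isIntegral_natCast' _
  rw [sum_count P (isIrr_classFun hχ)] at hint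
  have hd0 : d ≠ 0 := by
    rintro rfl
    exact isIrr_one_ne_zero hχ (by simpa using hd)
  obtain ⟨n, ρ, -, rfl⟩ := hχ
  have hn : n = d := by
    rw [Representation.char_one] at hd
    simpa using hd
  subst hn
  let σ : Representation ℂ (P : Subgroup G) (Fin n → ℂ) := ρ.comp (P : Subgroup G).subtype
  have hc0 : (Nat.card (P : Subgroup G) : ℂ) ≠ 0 := Nat.cast_ne_zero.2 Nat.card_pos.ne'
  haveI : Invertible (Nat.card (P : Subgroup G) : ℂ) := invertibleOfNonzero hc0
  have hm := Representation.card_inv_mul_sum_char_eq_finrank σ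
  have hm' : ∑ x : (P : Subgroup G), ρ.character x =
      (Nat.card (P : Subgroup G) : ℂ) * (Module.finrank ℂ σ.invariants : ℂ) := by
    rw [← hm, ← mul_assoc, mul_inv_cancel₀ hc0, one_mul]; rfl
  rw [hm', hd, ← mul_assoc, ← Nat.cast_mul, ← Nat.cast_mul] at hint
  have hdv := hcop.dvd_of_dvd_mul_left (nat_dvd_of_isIntegral_div hd0 hint)
  have hle : Module.finrank ℂ σ.invariants ≤ n := by
    simpa using σ.invariants.finrank_le
  have h0 : Module.finrank ℂ σ.invariants = 0 := by
    by_contra h0
    have he : Module.finrank ℂ σ.invariants = Module.finrank ℂ (Fin n → ℂ) := by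
      simpa using le_antisymm hle (Nat.le_of_dvd (Nat.pos_of_ne_zero h0) hdv)
    have ht := Submodule.eq_top_of_finrank_eq he
    refine hP (eq_bot_iff.2 fun x hx => hf x ?_)
    have : ρ x = 1 := LinearMap.ext fun v =>
      (ht ▸ Submodule.mem_top : v ∈ σ.invariants) ⟨x, hx⟩
    simp [Representation.character, this]
  have hb := Submodule.finrank_eq_zero.1 h0
  have hs : ∑ x : (P : Subgroup G), ρ x = 0 := by
    refine LinearMap.ext fun v => ?_
    have : (∑ x : (P : Subgroup G), ρ x) v ∈ σ.invariants := by
      intro a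
      rw [LinearMap.sum_apply, map_sum]
      refine Fintype.sum_equiv (Equiv.mulLeft a) _ _ fun x => ?_
      show ρ a (ρ x v) = ρ ((a * x : (P : Subgroup G)) : G) v
      rw [Subgroup.coe_mul, map_mul]; rfl
    rw [hb] at this
    exact this
  simp only [Representation.character, map_mul]
  rw [← map_sum, ← Finset.sum_mul, hs, zero_mul, map_zero]

end Cfsg.Agent.SylN
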