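import Mathlib

set_option autoImplicit false
set_option backward.isDefEq.respectTransparency false

namespace Cfsg.Agent.SylN

open Subgroup
open scoped Pointwise

variable {G : Type*} [Group G] [Finite G] {p : ℕ} [hp : Fact p.Prime]

theorem relIndex_eq (hn : Nat.card (Sylow p G) < p ^ 2) {P R : Sylow p G} (h : P ≠ R) :
    (R : Subgroup G).relIndex (P : Subgroup G) = p := by
  have hs : MulAction.stabilizer (P : Subgroup G) R = (R : Subgroup G).subgroupOf P := by
    ext x
    rw [MulAction.mem_stabilizer_iff, mem_subgroupOf]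
    have h1 : x • R = R ↔ (x : G) ∈ normalizer ((R : Subgroup G) : Set G) :=
      Sylow.smul_eq_iff_mem_normalizer
    rw [h1]
    have h2 := IsPGroup.inf_normalizer_sylow P.isPGroup' R
    exact ⟨fun hx => (h2 ▸ ⟨x.2, hx⟩ : (x : G) ∈ (P : Subgroup G) ⊓ R).2,
      fun hx => le_normalizer hx⟩
  obtain ⟨j, hj⟩ := P.isPGroup'.index ((R : Subgroup G).subgroupOf P)
  have hle : ((R : Subgroup G).subgroupOf P).index ≤ Nat.card (Sylow p G) := by
    rw [← hs, MulAction.index_stabilizer]
    exact Set.ncard_le_card _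
  have hj2 : j < 2 := (Nat.pow_lt_pow_iff_right hp.out.one_lt).1 (hj ▸ hle.trans_lt hn)
  have hj0 : j ≠ 0 := by
    rintro rfl
    rw [pow_zero, index_eq_one, subgroupOf_eq_top] at hj
    exact h (Sylow.ext (P.is_maximal' R.isPGroup' hj).symm)
  rw [relIndex, hj, show j = 1 by omega, pow_one]

theorem le_norm (hn : Nat.card (Sylow p G) < p ^ 2) {P R : Sylow p G} (h : P ≠ R) :
    (P : Subgroup G) ≤ normalizer (((P : Subgroup G) ⊓ R : Subgroup G) : Set G) := by
  have hi := relIndex_eq hn h
  have hnm : ((R : Subgroup G).subgroupOf P).Normal := by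
    refine Subgroup.normal_of_index_eq_minFac_card ?_
    obtain ⟨j, hj⟩ := IsPGroup.iff_card.1 P.isPGroup'
    have hj0 : j ≠ 0 := by
      rintro rfl
      have := ((R : Subgroup G).subgroupOf P).index_dvd_card
      rw [hj, pow_zero, Nat.dvd_one] at this
      exact hp.out.one_lt.ne' (hi.symm.trans this)
    rw [hj, hp.out.pow_minFac hj0]
    exact hi
  rw [← inf_subgroupOf_left] at hnm
  exact (normal_subgroupOf_iff_le_normalizer inf_le_left).1 hnm

theorem inf_le (hn : Nat.card (Sylow p G) < p ^ 2) {P R : Sylow p G} (h : P ≠ R) (T : Sylow p G) :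
    (P : Subgroup G) ⊓ R ≤ T := by
  set D : Subgroup G := (P : Subgroup G) ⊓ R with hD
  set N := normalizer (D : Set G) with hN
  have hP : (P : Subgroup G) ≤ N := le_norm hn h
  have hR : (R : Subgroup G) ≤ N := by rw [hN, hD, inf_comm]; exact le_norm hn h.symm
  have hT : IsPGroup p ((T : Subgroup G).subgroupOf N) := T.isPGroup'.comap_subtype
  obtain ⟨U, hU⟩ := hT.exists_le_sylow
  obtain ⟨a, ha⟩ := MulAction.exists_smul_eq N U (P.subtype hP)
  -- `R ⊓ a • T ≤ D`
  have key : (R : Subgroup G) ⊓ (((a : G) • T : Sylow p G) : Subgroup G) ≤ D := by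
    rintro x ⟨hxR, hxT⟩
    refine ⟨?_, hxR⟩
    have h1 : (⟨x, hR hxR⟩ : N) ∈ ((a • U : Sylow p N) : Subgroup N) := by
      rw [Sylow.coe_subgroup_smul, Subgroup.mem_pointwise_smul_iff_inv_smul_mem]
      apply hU
      rw [mem_subgroupOf]
      have hxT' : x ∈ (((a : G) • T : Sylow p G) : Subgroup G) := hxT
      rw [Sylow.coe_subgroup_smul, Subgroup.mem_pointwise_smul_iff_inv_smul_mem] at hxT'
      simpa using hxT'
    rw [ha, Sylow.coe_subtype, mem_subgroupOf] at h1
    exact h1
  have hle : D ≤ (((a : G) • T : Sylow p G) : Subgroup G) := by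
    by_cases e : R = (a : G) • T
    · rw [← e]; exact inf_le_right
    · have h1 := relIndex_eq hn e
      have h2 := relIndex_eq hn h.symm
      rw [← inf_relIndex_left] at h1
      rw [← inf_relIndex_right, ← hD] at h2
      have h3 := relIndex_mul_relIndex _ _ _ key (inf_le_right : D ≤ R)
      rw [h1, h2] at h3
      have h4 := relIndex_eq_one.1 (Nat.eq_of_mul_eq_mul_right hp.out.pos (h3.trans (one_mul p).symm))
      exact h4.trans inf_le_right
  intro x hx
  have h1 : (a : G) * x * (a : G)⁻¹ ∈ D := (mem_normalizer_iff.1 a.2 x).1 hx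
  have h2 := hle h1
  rw [Sylow.coe_subgroup_smul] at h2
  exact (Subgroup.smul_mem_pointwise_smul_iff (a := MulAut.conj (a : G)) (x := x)).1 h2

theorem card_eq [IsSimpleGroup G] (hn : Nat.card (Sylow p G) < p ^ 2)
    (h1 : Nat.card (Sylow p G) ≠ 1) (P : Sylow p G) : Nat.card (P : Subgroup G) = p := by
  have : Nontrivial (Sylow p G) :=
    Finite.one_lt_card_iff_nontrivial.1 (lt_of_le_of_ne Nat.card_pos h1.symm)
  obtain ⟨R, hR⟩ := exists_ne P
  have hnm : (⨅ T : Sylow p G, (T : Subgroup G)).Normal := by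
    refine ⟨fun x hx g => mem_iInf.2 fun T => ?_⟩
    have := mem_iInf.1 hx (g⁻¹ • T)
    rw [Sylow.coe_subgroup_smul, Subgroup.mem_pointwise_smul_iff_inv_smul_mem] at this
    simpa using this
  have hi := relIndex_eq hn hR.symm
  rcases hnm.eq_bot_or_eq_top with hb | ht
  · have hD : (P : Subgroup G) ⊓ R = ⊥ := eq_bot_iff.2 (hb ▸ le_iInf (inf_le hn hR.symm))
    rw [← inf_relIndex_left, hD, relIndex_bot_left] at hi
    exact hi
  · have hR' : (R : Subgroup G) = ⊤ := eq_top_iff.2 (ht ▸ iInf_le _ R)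
    rw [hR', relIndex_top_left] at hi
    exact absurd hi hp.out.one_lt.ne

end Cfsg.Agent.SylN
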